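import Cfsg.Agent.SolvStr.Cls1
import Cfsg.Agent.Coprime.Action
import Cfsg.Agent.Solv.Fitting
import Cfsg.Agent.Hyp.FTProof

/-! Coprime action with a disconnected graph of invariant classes: the fixed points on `G/F(G)` are nilpotent. -/

set_option autoImplicit false

namespace CF.Bhm
open Subgroup CF.BG CF.SolvStr CF.Coprime Cfsg
open scoped commutatorElement

variable {A G : Type*} [Group A] [Group G] [Finite G] {φ : A →* MulAut G} {p q : G → Prop} {x y : G}

/-- the class of `g` is invariant -/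
def Iv (φ : A →* MulAut G) (g : G) : Prop := ∀ a, φ a g ∈ cls g

theorem Iv.mul (hx : Iv φ x) (hy : Iv φ y) (c : (ind x).Coprime (ind y)) : Iv φ (x * y) := fun a =>
  map_mul (φ a) x y ▸ mul_mem_cls c (hx a) (hy a)

theorem Iv.cj (hx : Iv φ x) (g : G) : Iv φ (g * x * g⁻¹) := fun a => by
  obtain ⟨k, hk⟩ := mem_cls.1 (hx a)
  exact mem_cls.2 ⟨φ a g * k * g⁻¹, by simp only [map_mul, map_inv, ← hk]; group⟩

theorem Iv.zp (hx : Iv φ x) (hy : y ∈ zpowers x) : Iv φ y := fun a => by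
  obtain ⟨k, hk⟩ := mem_cls.1 (hx a)
  obtain ⟨n, rfl⟩ := hy
  exact mem_cls.2 ⟨k, by simp only [map_zpow, ← hk, conj_zpow]⟩

theorem nil_of {K : Type*} [Group K] [Finite K] {r : ℕ} (hr : r.Prime)
    (h : ∀ s, s.Prime → s ≠ r → ∀ x : K, ¬ s ∣ ind x) : Group.IsNilpotent K := by
  haveI := Fact.mk hr
  have : IsPGroup r (K ⧸ center K) := IsPGroup.iff_card.2 ⟨_, Nat.eq_prime_pow_of_unique_prime_dvd Nat.card_pos.ne'
    fun {s} hs d => by
      by_contra n
      obtain ⟨P, hP⟩ := exists_syl s (⊤ : Subgroup K)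
      exact (by simpa using hP.idx_of_le (syl_le_center hP fun x t ht e (f : t = s) => h s hs n x (f ▸ e)) :
        PiNat {s}ᶜ (center K).index) s hs d rfl⟩
  exact Group.of_quotient_center_nilpotent this.isNilpotent

/-- the two families of invariant classes -/
structure Sp (φ : A →* MulAut G) (p q : G → Prop) : Prop where
  cov : ∀ g, 1 < ind g ∧ Iv φ g ↔ p g ∨ q g
  spl : ∀ {g h}, p g → q h → (ind g).Coprime (ind h)

namespace Sp
variable (h : Sp φ p q)
include h

theorem symm : Sp φ q p := ⟨fun g => (h.cov g).trans or_comm, fun a b => (h.spl b a).symm⟩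

theorem l (hx : p x) : 1 < ind x ∧ Iv φ x := (h.cov x).2 (Or.inl hx)

theorem fit {b : G} (hb : p b) (m : ∀ g, Iv φ g → ind g ≤ ind b) (hy : q y) : y ∈ fittingSubgroup G := by
  have c := (h.spl hb hy).symm
  have k := comm_mem_stab c (m _ ((h.symm.l hy).2.mul (h.l hb).2 c))
  have c' := c.symm.coprime_dvd_left (card_stab_dvd b)
  haveI : IsMulCommutative (normalClosure {y}) := isMulCommutative_closure fun u hu v hv => by
    obtain ⟨g, rfl⟩ : ∃ g, g * y * g⁻¹ = u := by simpa [Group.mem_conjugatesOfSet_iff] using hu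
    obtain ⟨f, rfl⟩ : ∃ g, g * y * g⁻¹ = v := by simpa [Group.mem_conjugatesOfSet_iff] using hv
    have := comm_of_coprime (b := g⁻¹ * f * y * (g⁻¹ * f)⁻¹) (norm_stab b) k c' (by rwa [ind_conj])
    calc _ = g * (y * (g⁻¹ * f * y * (g⁻¹ * f)⁻¹)) * g⁻¹ := by group
      _ = _ := by rw [this]; group
  haveI := CF.Solv.isNilpotent_of_isMulCommutative (normalClosure {y})
  exact CF.Solv.le_fitting (normalClosure {y}) (subset_normalClosure rfl)

theorem prime (hy : q y) : ∃ r z, r.Prime ∧ PiElt {r} z ∧ q z := by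
  obtain ⟨y1, y2⟩ := h.symm.l hy
  obtain ⟨r, hr, n⟩ : ∃ r : ℕ, r.Prime ∧ constt {r} y ∉ center G := by
    by_contra d; push Not at d; exact one_lt_ind.1 y1 (mem_center_of_constt d)
  have n' := one_lt_ind.2 n
  refine ⟨r, _, hr, constt_pi _ y, ((h.cov _).1 ⟨n', y2.zp (constt_mem ..)⟩).resolve_left fun e => n'.ne' ?_⟩
  exact Nat.eq_one_of_dvd_coprimes (h.spl e hy) dvd_rfl (ind_constt_dvd ..)

theorem dvd {r s : ℕ} (n : s ≠ r) (hx : p x) (hy : q y) (a : PiElt {s} x) (b : PiElt {r} y) (hs : s.Prime) :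
    s ∣ ind y := by
  by_contra d
  obtain ⟨P, hP, l⟩ := exists_syl_le (le_top (a := zpowers x)) (by rwa [PiGrp, Nat.card_zpowers])
  obtain ⟨g, hg⟩ := exists_cj_le (H := 𝐂₁ y) hP fun t ht e (f : t = s) => d (f ▸ e)
  have c := mem_cent1.1 (hg (mem_cj_iff.2 ⟨x, l (mem_zpowers x), rfl⟩))
  have o := (a.conj g).coprime (b.to_compl_single (by simpa using n))
  have d1 := ind_dvd_mul_left c o
  have d2 := ind_dvd_mul_right c o
  have co := h.spl hx hy
  rw [ind_conj] at d1
  obtain ⟨x1, x2⟩ := h.l hx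
  obtain ⟨y1, y2⟩ := h.symm.l hy
  rcases (h.cov _).1 ⟨y1.trans_le (Nat.le_of_dvd (ind_pos _) d2), (x2.cj g).mul y2 (by rwa [ind_conj])⟩ with e | e
  · exact y1.ne' (Nat.eq_one_of_dvd_coprimes (h.spl e hy) d2 dvd_rfl)
  · exact x1.ne' (Nat.eq_one_of_dvd_coprimes (h.spl hx e) dvd_rfl d1)

theorem nil [Finite A] (co : (Nat.card A).Coprime (Nat.card G)) (hy : q y) (f : ∀ y, q y → y ∈ fittingSubgroup G)
    {K : Type*} [Group K] [Finite K] (π : fixSub φ ⊤ →* K) (su : Function.Surjective π)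
    (ke : ∀ c : fixSub φ ⊤, c.1 ∈ fittingSubgroup G → π c = 1) : Group.IsNilpotent K := by
  obtain ⟨r, y, hr, b, hy⟩ := h.prime hy
  have P : ∀ c : fixSub φ ⊤, π c ≠ 1 → p c := fun c n => ((h.cov _).1 ⟨one_lt_ind.2 fun e =>
    n (ke c (CF.Solv.center_le_fitting e)), fun a => by rw [(mem_fixSub_top φ).1 c.2 a]; exact self_mem_cls _⟩).resolve_right
      fun e => n (ke c (f _ e))
  refine nil_of hr fun s hs n x d => ?_
  haveI := Fact.mk hs
  obtain ⟨c, rfl⟩ := su x
  obtain ⟨u, hu⟩ := exists_prime_orderOf_dvd_card' s (d.trans (index_dvd_card _))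
  obtain ⟨u, rfl⟩ := su u
  have d1 := h.dvd n (P (constt {s} u) fun e => by
    rw [← constt_mul_constt {s} u, map_mul, e, one_mul] at hu
    exact constt_pi {s}ᶜ u s hs (hu.symm.dvd.trans (orderOf_map_dvd π _)) rfl) hy (by
      have := constt_pi {s} u; rwa [PiElt, ← orderOf_coe] at this) b hs
  have c1 : π c ≠ 1 := fun e => by
    rw [e, ind_eq_one.2 (one_mem _)] at d; exact hs.one_lt.ne' (Nat.dvd_one.1 d)
  have d2 : ¬ s ∣ ind c.1 := fun e => hs.one_lt.ne' (Nat.eq_one_of_dvd_coprimes (h.spl (P c c1) hy) e d1)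
  have so := CF.Hyp.isSolvable_or_of_coprime co
  obtain ⟨Q, hQ, i⟩ := act_exists_inv_isSylowOf φ (B := ⊤) (H := 𝐂₁ c.1) ((inv_top_iff φ).2 fun a z hz => by
    rw [mem_cent1] at hz ⊢; rw [← (mem_fixSub_top φ).1 c.2 a, ← map_mul, hz, map_mul]) (coprime_sub co ..) (solv_sub so ..) s
  have := (act_isSylowOf_inf_fixSub φ (inv_top φ ⊤) (coprime_sub co ..) (solv_sub so ..) s ((syl_iff hs).1
    (syl_top_of_not_dvd ((syl_iff hs).2 hQ) fun t ht e (f : t = s) => d2 (f ▸ e))) i).not_dvd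
  rw [top_inf_eq, inf_relIndex_right] at this
  refine this (d.trans ((index_dvd_of_le ?_).trans (index_map_dvd _ su)))
  rintro _ ⟨z, hz, rfl⟩
  rw [mem_cent1, ← map_mul, ← map_mul]
  exact congrArg π (Subtype.ext (mem_cent1.1 (hQ.le hz)))

theorem main [Finite A] (co : (Nat.card A).Coprime (Nat.card G)) (hx : p x) (hy : q y)
    {K : Type*} [Group K] [Finite K] (π : fixSub φ ⊤ →* K) (su : Function.Surjective π)
    (ke : ∀ c : fixSub φ ⊤, c.1 ∈ fittingSubgroup G → π c = 1) : Group.IsNilpotent K := by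
  obtain ⟨b, hb, m⟩ := Set.exists_max_image {g | Iv φ g} ind (Set.toFinite _) ⟨x, (h.l hx).2⟩
  rcases (h.cov b).1 ⟨(h.l hx).1.trans_le (m x (h.l hx).2), hb⟩ with e | e
  · exact h.nil co hy (fun _ => h.fit e m) π su ke
  · exact h.symm.nil co hx (fun _ => h.symm.fit e m) π su ke

end Sp

/-- the induced action on `G/F(G)` -/
@[reducible] def qa (A G : Type*) [Group A] [Group G] [MulDistribMulAction A G] :
    MulDistribMulAction A (G ⧸ fittingSubgroup G) where
  smul a := QuotientGroup.map _ _ (MulDistribMulAction.toMulAut A G a).toMonoidHom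
    (characteristic_iff_le_comap.1 inferInstance _)
  one_smul := QuotientGroup.forall_mk.2 fun g => congrArg QuotientGroup.mk (one_smul A g)
  mul_smul a b := QuotientGroup.forall_mk.2 fun g => congrArg QuotientGroup.mk (mul_smul a b g)
  smul_mul _ := map_mul _
  smul_one _ := map_one _

theorem red [Finite A] [MulDistribMulAction A G] (co : (Nat.card A).Coprime (Nat.card G))
    (h : Sp (MulDistribMulAction.toMulAut A G) p q) (hx : p x) (hy : q y) :
    letI := qa A G; Group.IsNilpotent (FixedPoints.subgroup A (G ⧸ fittingSubgroup G)) := by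
  letI := qa A G
  refine h.main co hx hy (((QuotientGroup.mk' _).comp (Subgroup.subtype _)).codRestrict _ fun c a =>
    congrArg QuotientGroup.mk ((mem_fixSub_top _).1 c.2 a)) (fun ⟨z, hz⟩ => ?_) fun c e =>
      Subtype.ext ((QuotientGroup.eq_one_iff _).2 e)
  obtain ⟨g, rfl⟩ := QuotientGroup.mk_surjective z
  obtain ⟨k, hk, e⟩ := act_exists_mul_mem_fixSub (MulDistribMulAction.toMulAut A G) (inv_of_characteristic _ ⊤ (fittingSubgroup G))
    (coprime_sub co ..) (Or.inr inferInstance) g fun a _ => QuotientGroup.eq.1 (hz a).symm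
  exact ⟨⟨_, e⟩, Subtype.ext (QuotientGroup.mk_mul_of_mem g hk)⟩

end CF.Bhm
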